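import Groth.Agent.Sga7.H516.SHLattice

/-!
# Descent of lattices inside a ring

`R` a discrete valuation ring, `R'` a strict henselization, `K`, `K'` the fraction fields.
`θ : F → F'` a homomorphism from a `K`-algebra to a `K'`-algebra, `S` a `K`-subspace of `F`, `I` an
`R'`-submodule of `F'` which is stable under semilinear endomorphisms fixing `θ(S)`.
* `mem_closure`: an element of `I` which lies in `K' θ(S)` is an `R'`-combination of elements of
  `I ∩ θ(S)`.
-/

set_option autoImplicit false
set_option linter.unusedSectionVars false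
universe u v

open scoped TensorProduct

namespace Groth.Agent.Sga7.H516.CovLat

variable {R R' K K' : Type u} [CommRing R] [IsDomain R] [IsDiscreteValuationRing R]
  [CommRing R'] [IsDomain R'] [IsLocalRing R'] [Algebra R R'] [IsLocalHom (algebraMap R R')]
  [Hensel.IsStrictHenselization R R']
  [Field K] [Algebra R K] [IsFractionRing R K] [Field K'] [Algebra R' K'] [IsFractionRing R' K']
  [Algebra K K'] [Algebra R K'] [IsScalarTower R K K'] [IsScalarTower R R' K']
  {F F' : Type v} [CommRing F] [CommRing F']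

theorem mem_closure {κ : K →+* F} {κ' : K' →+* F'} {θ : F →+* F'}
    (hθ : ∀ c, θ (κ c) = κ' (algebraMap K K' c)) {S : AddSubgroup F}
    (hS : ∀ c, ∀ v ∈ S, κ c * v ∈ S) {I : AddSubgroup F'}
    (hI : ∀ (r : R'), ∀ g ∈ I, κ' (algebraMap R' K' r) * g ∈ I)
    {s : (R' ≃ₐ[R] R') → F' →+* F'}
    (hs : ∀ σ (a : R'), s σ (κ' (algebraMap R' K' a)) = κ' (algebraMap R' K' (σ a)))
    (hsθ : ∀ σ, ∀ v ∈ S, s σ (θ v) = θ v) (hsI : ∀ σ, ∀ g ∈ I, s σ g ∈ I)
    (hspan : ∀ v ∈ S, ∃ r : R, r ≠ 0 ∧ κ' (algebraMap R K' r) * θ v ∈ I)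
    {ι : Type*} (t : Finset ι) (c : ι → K') (v : ι → F) (hv : ∀ i ∈ t, v i ∈ S)
    (hg : (∑ i ∈ t, κ' (c i) * θ (v i)) ∈ I) :
    (∑ i ∈ t, κ' (c i) * θ (v i)) ∈
      AddSubgroup.closure {g | ∃ r : R', ∃ v ∈ S, θ v ∈ I ∧ g = κ' (algebraMap R' K' r) * θ v} := by
  let _ : Algebra K F := κ.toAlgebra
  let V : Submodule K F :=
    { carrier := S
      add_mem' := S.add_mem
      zero_mem' := S.zero_mem
      smul_mem' := fun c x hx => by
        rw [Algebra.smul_def]
        exact hS c x hx }
  let _ : Module R V := Module.compHom V (algebraMap R K)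
  have hRV : IsScalarTower R K V := ⟨fun r c x => by
    change _ = algebraMap R K r • (c • x)
    rw [smul_smul, Algebra.smul_def]⟩
  let _ : Algebra K F' := (κ'.comp (algebraMap K K')).toAlgebra
  let ev : K' ⊗[K] V →ₗ[K] F' := TensorProduct.lift (LinearMap.mk₂ K
    (fun c (v : V) => κ' c * θ v)
    (fun a b v => by rw [map_add, add_mul])
    (fun a b v => by
      rw [Algebra.smul_def, Algebra.smul_def, map_mul, mul_assoc]
      rfl)
    (fun a v w => by rw [Submodule.coe_add, map_add, mul_add])
    (fun a b v => by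
      rw [Algebra.smul_def, Submodule.coe_smul, Algebra.smul_def, map_mul, mul_left_comm]
      congr 1
      exact hθ a))
  have hev : ∀ c (v : V), ev (c ⊗ₜ v) = κ' c * θ v := fun c v => rfl
  have hevsmul : ∀ (r : R') (z : K' ⊗[K] V), ev (r • z) = κ' (algebraMap R' K' r) * ev z := by
    intro r z
    induction z with
    | zero => rw [smul_zero, map_zero, mul_zero]
    | tmul c v =>
      rw [TensorProduct.smul_tmul', hev, hev, Algebra.smul_def, map_mul, mul_assoc]
    | add z z' hz hz' => rw [smul_add, map_add, map_add, mul_add, hz, hz']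
  have hs' : ∀ σ (c : K'), s σ (κ' c) =
      κ' (IsFractionRing.fieldEquivOfAlgEquiv K K' K' σ c) := by
    intro σ c
    have h1 : (s σ).comp κ' = κ'.comp
        (IsFractionRing.fieldEquivOfAlgEquiv K K' K' σ : K' →+* K') := by
      apply IsLocalization.ringHom_ext (nonZeroDivisors R')
      ext a
      simp only [RingHom.comp_apply]
      rw [hs]
      congr 1
      exact (IsFractionRing.fieldEquivOfAlgEquiv_algebraMap K K' K' σ a).symm
    exact congr($h1 c)
  have hact : ∀ σ (z : K' ⊗[K] V), ev (Lattice.act K K' V σ z) = s σ (ev z) := by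
    intro σ z
    induction z with
    | zero => rw [map_zero, map_zero, map_zero]
    | tmul c v => rw [Lattice.act_tmul, hev, hev, map_mul, hs', hsθ σ v v.2]
    | add z z' hz hz' => rw [map_add, map_add, map_add, map_add, hz, hz']
  let M : Submodule R' (K' ⊗[K] V) :=
    { carrier := {z | ev z ∈ I}
      add_mem' := fun {a b} ha hb => by
        change ev (a + b) ∈ I
        rw [map_add]
        exact I.add_mem ha hb
      zero_mem' := by
        change ev 0 ∈ I
        rw [map_zero]
        exact I.zero_mem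
      smul_mem' := fun r z hz => by
        change ev (r • z) ∈ I
        rw [hevsmul]
        exact hI r _ hz }
  have key := SHLattice.eq_span R R' K K' M (fun σ z hz => by
      change ev _ ∈ I
      rw [hact]
      exact hsI σ _ hz) (fun v => by
      obtain ⟨r, hr, h⟩ := hspan v v.2
      refine ⟨r, hr, ?_⟩
      change ev _ ∈ I
      rw [hevsmul, hev, map_one, one_mul, ← IsScalarTower.algebraMap_apply]
      exact h)
  classical
  let w : ι → V := fun i => if hi : v i ∈ S then ⟨v i, hi⟩ else 0
  have hw : ∀ i ∈ t, (w i : F) = v i := by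
    intro i hi
    simp only [w]
    rw [dif_pos (hv i hi)]
  let z : K' ⊗[K] V := ∑ i ∈ t, c i ⊗ₜ w i
  have hz : ev z = ∑ i ∈ t, κ' (c i) * θ (v i) := by
    rw [map_sum]
    refine Finset.sum_congr rfl fun i hi => ?_
    rw [hev, hw i hi]
  have hzM : z ∈ M := by
    change ev z ∈ I
    rw [hz]
    exact hg
  rw [← hz]
  rw [key] at hzM
  let T : AddSubgroup F' :=
    AddSubgroup.closure {g | ∃ r : R', ∃ v ∈ S, θ v ∈ I ∧ g = κ' (algebraMap R' K' r) * θ v}
  have hT : ∀ (r : R'), ∀ g ∈ T, κ' (algebraMap R' K' r) * g ∈ T := by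
    intro r g hg
    induction hg using AddSubgroup.closure_induction with
    | mem g hg =>
      obtain ⟨r', v, hv, hv', rfl⟩ := hg
      refine AddSubgroup.subset_closure ⟨r * r', v, hv, hv', ?_⟩
      rw [map_mul, map_mul, mul_assoc]
    | zero => rw [mul_zero]; exact T.zero_mem
    | add g g' _ _ hg hg' => rw [mul_add]; exact T.add_mem hg hg'
    | neg g _ hg => rw [mul_neg]; exact T.neg_mem hg
  have hfin : ∀ y ∈ Submodule.span R' ((fun v : V => (1 : K') ⊗ₜ[K] v) ''
      (Lattice.rat R M : Set V)), ev y ∈ T := by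
    intro y hy
    induction hy using Submodule.span_induction with
    | mem y hy =>
      obtain ⟨v, hv, rfl⟩ := hy
      refine AddSubgroup.subset_closure ⟨1, v, v.2, ?_, ?_⟩
      · have h1 : ev ((1 : K') ⊗ₜ v) ∈ I := hv
        rw [hev, map_one, one_mul] at h1
        exact h1
      · rw [hev, map_one, map_one, map_one]
    | zero =>
      rw [map_zero]
      exact T.zero_mem
    | add y y' _ _ hy hy' =>
      rw [map_add]
      exact T.add_mem hy hy'
    | smul a y _ hy =>
      rw [hevsmul]
      exact hT a _ hy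
  exact hfin z hzM

end Groth.Agent.Sga7.H516.CovLat
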